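import Cfsg.Agent.Chars.TIFixed.Trace

/-!
# Fixed vectors of a subgroup containing the normaliser of a TI `p`-subgroup

If `P ≤ H` is a `p`-group acting freely on the cosets of `H` other than `H`, then in a complex
representation of dimension less than `|P|` without non-zero fixed vectors of `G` the subgroup `H`
has no non-zero fixed vectors either.
-/

set_option autoImplicit false

namespace CfsgLib.Chars.TIFixed

open Finset

universe u v

section valuation

variable (V : ValuationSubring ℂ)

/-- A nonzero family can be scaled into `V` so that one member becomes `1`. -/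
theorem exists_scale {ι : Type*} (s : Finset ι) (c : ι → ℂ) (hc : ∃ i ∈ s, c i ≠ 0) :
    ∃ i ∈ s, c i ≠ 0 ∧ ∀ j ∈ s, c j / c i ∈ V := by
  classical
  obtain ⟨i₀, hi₀, h0⟩ := hc
  obtain ⟨i, hi, hmax⟩ := s.exists_max_image (fun j => V.valuation (c j)) ⟨i₀, hi₀⟩
  have hne : c i ≠ 0 := fun e => by
    have := hmax i₀ hi₀
    simp only [e, map_zero, le_zero_iff] at this
    exact h0 ((V.valuation.zero_iff).1 this)
  refine ⟨i, hi, hne, fun j hj => V.mem_of_valuation_le_one _ ?_⟩
  rw [map_div₀]
  exact div_le_one_of_le₀ (hmax j hj) zero_le'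

variable {G : Type u} [Group G] [Fintype G] {W : Type v} [AddCommGroup W] [Module ℂ W]
  [FiniteDimensional ℂ W]

/-- Any representation of a finite group has a basis with coefficients in `V`. -/
theorem exists_integral_basis (ρ : Representation ℂ G W) :
    ∃ (ι : Type v) (_ : Fintype ι) (b : Module.Basis ι ℂ W), ∀ (g : G) (i j : ι),
      b.repr (ρ g (b j)) i ∈ V := by
  classical
  let R : Subring ℂ := V.toSubring
  let b₀ := Module.finBasis ℂ W
  let F : Finset W := Finset.univ.image fun z : G × Fin (Module.finrank ℂ W) => ρ z.1 (b₀ z.2)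
  let N : Submodule R W := Submodule.span R (F : Set W)
  have hex : ∃ m, ∃ T : Finset W, T.card = m ∧ Submodule.span R (T : Set W) = N := ⟨_, F, rfl, rfl⟩
  obtain ⟨T, hT, hTN⟩ := Nat.find_spec hex
  have hTsub : ∀ t ∈ T, t ∈ N := fun t ht => hTN ▸ Submodule.subset_span ht
  have hli : LinearIndependent ℂ (Subtype.val : T → W) := by
    rw [Fintype.linearIndependent_iff]
    intro c hc i₁
    by_contra hi₁
    obtain ⟨i, -, hi, hV⟩ := exists_scale V Finset.univ c ⟨i₁, Finset.mem_univ _, hi₁⟩
    have hmem : (i : W) ∈ Submodule.span R ((T.erase i : Finset W) : Set W) := by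
      have h1 : (i : W) = - ∑ j ∈ Finset.univ.erase i, (c j / c i) • (j : W) := by
        rw [eq_neg_iff_add_eq_zero]
        have h2 : ∑ j : T, (c j / c i) • (j : W) = 0 := by
          have := congrArg (fun w => (c i)⁻¹ • w) hc
          simpa [Finset.smul_sum, smul_smul, div_eq_inv_mul] using this
        rw [← Finset.add_sum_erase _ _ (Finset.mem_univ i), div_self hi, one_smul] at h2
        exact h2
      refine h1.symm.subst (motive := fun w => w ∈ Submodule.span R ((T.erase (i : W) : Finset W) : Set W))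
        (neg_mem (sum_mem fun j hj => ?_))
      have h3 : (j : W) ∈ Submodule.span R ((T.erase i : Finset W) : Set W) :=
        Submodule.subset_span (Finset.mem_coe.2 (Finset.mem_erase.2
          ⟨fun e => (Finset.mem_erase.1 hj).1 (Subtype.ext e), j.2⟩))
      exact Submodule.smul_mem _ (⟨c j / c i, hV j (Finset.mem_univ _)⟩ : R) h3
    have hspan : Submodule.span R ((T.erase i : Finset W) : Set W) = N := by
      refine le_antisymm ?_ ?_
      · rw [← hTN]
        exact Submodule.span_mono (Finset.coe_subset.2 (Finset.erase_subset _ _))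
      · rw [← hTN]
        refine Submodule.span_le.2 fun t ht => ?_
        by_cases hti : t = i
        · exact hti ▸ hmem
        · exact Submodule.subset_span (Finset.mem_coe.2 (Finset.mem_erase.2 ⟨hti, ht⟩))
    have hlt : (T.erase (i : W)).card < Nat.find hex := hT ▸ Finset.card_erase_lt_of_mem i.2
    exact Nat.find_min hex hlt ⟨_, rfl, hspan⟩
  have hspanC : ⊤ ≤ Submodule.span ℂ (Set.range (Subtype.val : T → W)) := by
    rw [Subtype.range_coe_subtype]
    show ⊤ ≤ Submodule.span ℂ (T : Set W)
    rw [← b₀.span_eq, Submodule.span_le]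
    rintro _ ⟨i, rfl⟩
    have h1 : b₀ i ∈ N := Submodule.subset_span
      (Finset.mem_coe.2 (Finset.mem_image.2 ⟨(1, i), Finset.mem_univ _, by simp⟩))
    rw [← hTN] at h1
    exact Submodule.span_le_restrictScalars R ℂ _ h1
  refine ⟨T, inferInstance, Module.Basis.mk hli hspanC, fun g i j => ?_⟩
  rw [Module.Basis.mk_apply]
  -- `N` is stable and consists of vectors with coordinates in `V`
  let coordN : Submodule R W :=
    { carrier := {w | ∀ k : T, (Module.Basis.mk hli hspanC).repr w k ∈ V}
      zero_mem' := fun k => by rw [map_zero]; exact V.zero_mem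
      add_mem' := fun {a b} ha hb k => by rw [map_add]; exact V.add_mem _ _ (ha k) (hb k)
      smul_mem' := fun r w hw k => by
        have e : r • w = (r : ℂ) • w := rfl
        rw [e, map_smul, Finsupp.smul_apply, smul_eq_mul]
        exact V.mul_mem _ _ r.2 (hw k) }
  have hle : N ≤ coordN := by
    rw [← hTN]
    refine Submodule.span_le.2 fun t ht k => ?_
    have e : t = Module.Basis.mk hli hspanC ⟨t, ht⟩ := (Module.Basis.mk_apply hli hspanC ⟨t, ht⟩).symm
    rw [e, Module.Basis.repr_self, Finsupp.single_apply]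
    split_ifs
    · exact V.one_mem
    · exact V.zero_mem
  have hstab : ∀ w ∈ N, ρ g w ∈ N := by
    intro w hw
    induction hw using Submodule.span_induction with
    | mem x hx =>
      obtain ⟨⟨h, k⟩, -, rfl⟩ := Finset.mem_image.1 (Finset.mem_coe.1 hx)
      refine Submodule.subset_span (Finset.mem_coe.2 (Finset.mem_image.2
        ⟨(g * h, k), Finset.mem_univ _, ?_⟩))
      rw [map_mul]; rfl
    | zero => rw [map_zero]; exact zero_mem _
    | add x y _ _ hx hy => rw [map_add]; exact add_mem hx hy
    | smul r x _ hx =>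
      have e : r • x = (r : ℂ) • x := rfl
      rw [e, map_smul]
      exact N.smul_mem r hx
  exact hle (hstab _ (hTsub j j.2)) i

end valuation

/-- A valuation subring of `ℂ` with residue characteristic `p`. -/
theorem exists_valuationSubring (p : ℕ) [hp : Fact p.Prime] :
    ∃ V : ValuationSubring ℂ, CharP (IsLocalRing.ResidueField V) p := by
  let A : Subring ℂ := (Int.castRingHom ℂ).range
  let a : A := ⟨(p : ℂ), (p : ℤ), by simp⟩
  have hI : Ideal.span {a} ≠ ⊤ := by
    rw [Ne, Ideal.span_singleton_eq_top, isUnit_iff_exists_inv]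
    rintro ⟨⟨_, z, rfl⟩, hz⟩
    have h1 : (p : ℂ) * (z : ℂ) = 1 := congrArg Subtype.val hz
    have h2 : (p : ℤ) * z = 1 := by exact_mod_cast h1
    exact hp.out.ne_one (by exact_mod_cast Int.eq_one_of_mul_eq_one_right (by positivity) h2)
  obtain ⟨V, -, hV⟩ := Ideal.image_subset_nonunits_valuationSubring _ hI
  have hp0 : (p : IsLocalRing.ResidueField V) = 0 := by
    rw [← map_natCast (IsLocalRing.residue V), IsLocalRing.residue_eq_zero_iff,
      ← ValuationSubring.coe_mem_nonunits_iff]
    exact hV ⟨a, Ideal.mem_span_singleton_self a, by simp [a]⟩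
  exact ⟨V, (CharP.charP_iff_prime_eq_zero hp.out).2 hp0⟩

variable {G : Type u} [Group G] [Fintype G] {W : Type v} [AddCommGroup W] [Module ℂ W]
  [FiniteDimensional ℂ W]

theorem fixed_eq_zero {p : ℕ} [hp : Fact p.Prime] (P H : Subgroup G) (hP : IsPGroup p P)
    (hPH : P ≤ H) (hfree : ∀ x ∈ P, ∀ g : G, g ∉ H → g⁻¹ * x * g ∈ H → x = 1)
    (ρ : Representation ℂ G W) (hdim : Module.finrank ℂ W < Nat.card P)
    (hG : ∀ w : W, (∀ g, ρ g w = w) → w = 0) {v : W} (hv : ∀ h ∈ H, ρ h v = v) : v = 0 := by
  classical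
  by_contra hv0
  obtain ⟨V, hchar⟩ := exists_valuationSubring p
  obtain ⟨ι, hι, b, hb⟩ := exists_integral_basis V ρ
  have hιcard : Fintype.card ι < Fintype.card P := by
    rw [← Module.finrank_eq_card_basis b, ← Nat.card_eq_fintype_card]; exact hdim
  -- the scaled vector
  obtain ⟨i₀, -, hi₀, hcoord⟩ := exists_scale V Finset.univ (fun i => b.repr v i) (by
    by_contra hcon
    push Not at hcon
    exact hv0 (b.repr.map_eq_zero_iff.1 (Finsupp.ext fun i => hcon i (Finset.mem_univ _))))
  set w : W := (b.repr v i₀)⁻¹ • v with hw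
  have hwc : ∀ i, b.repr w i ∈ V := fun i => by
    rw [hw, map_smul, Finsupp.smul_apply, smul_eq_mul, ← div_eq_inv_mul]
    exact hcoord i (Finset.mem_univ _)
  have hwi : b.repr w i₀ = 1 := by
    rw [hw, map_smul, Finsupp.smul_apply, smul_eq_mul, inv_mul_cancel₀ hi₀]
  have hwfix : ∀ h ∈ H, ρ h w = w := fun h hh => by rw [hw, map_smul, hv h hh]
  -- the integral matrices
  have hmat : ∀ g i j, LinearMap.toMatrix b b (ρ g) i j ∈ V := fun g i j => by
    rw [LinearMap.toMatrix_apply]; exact hb g i j
  have hinj : Function.Injective ((V.subtype).mapMatrix : Matrix ι ι V →+* Matrix ι ι ℂ) :=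
    fun A B h => Matrix.ext fun i j => Subtype.ext (congrFun (congrFun h i) j)
  let A : G →* Matrix ι ι V :=
    { toFun := fun g i j => ⟨LinearMap.toMatrix b b (ρ g) i j, hmat g i j⟩
      map_one' := hinj (by
        refine Eq.trans ?_ (map_one _).symm
        refine Matrix.ext fun i j => ?_
        show LinearMap.toMatrix b b (ρ 1) i j = (1 : Matrix ι ι ℂ) i j
        rw [map_one, LinearMap.toMatrix_one])
      map_mul' := fun g h => hinj (by
        refine Eq.trans ?_ (map_mul _ _ _).symm
        refine Matrix.ext fun i j => ?_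
        show LinearMap.toMatrix b b (ρ (g * h)) i j = (LinearMap.toMatrix b b (ρ g) *
          LinearMap.toMatrix b b (ρ h)) i j
        rw [map_mul, LinearMap.toMatrix_mul]) }
  let u : ι → V := fun i => ⟨b.repr w i, hwc i⟩
  have hAu : ∀ g i, ((Matrix.mulVec (A g) u i : V) : ℂ) = b.repr (ρ g w) i := by
    intro g i
    rw [← LinearMap.toMatrix_mulVec_repr b b (ρ g) w]
    simp only [Matrix.mulVec, dotProduct]
    rw [AddSubmonoidClass.coe_finsetSum]
    rfl
  -- reduction
  let res := IsLocalRing.residue V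
  let M : G →* Matrix ι ι (IsLocalRing.ResidueField V) :=
    (res.mapMatrix : Matrix ι ι V →+* _).toMonoidHom.comp A
  let z : ι → IsLocalRing.ResidueField V := fun i => res (u i)
  have hMz : ∀ g i, Matrix.mulVec (M g) z i = res (Matrix.mulVec (A g) u i) := fun g i =>
    (RingHom.map_mulVec res (A g) u i).symm
  haveI : Fintype (G ⧸ H) := Fintype.ofFinite _
  have hMfix : ∀ h ∈ H, Matrix.mulVec (M h) z = z := by
    intro h hh
    funext i
    rw [hMz]
    refine congrArg res (Subtype.ext ?_)
    rw [hAu, hwfix h hh]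
  have hwell : ∀ (g : G) (h : G), h ∈ H → Matrix.mulVec (M (g * h)) z = Matrix.mulVec (M g) z := by
    intro g h hh
    rw [map_mul, ← Matrix.mulVec_mulVec, hMfix h hh]
  have hout : ∀ g : G, Matrix.mulVec (M (QuotientGroup.mk (s := H) g).out) z =
      Matrix.mulVec (M g) z := by
    intro g
    obtain ⟨h, hh⟩ := QuotientGroup.mk_out_eq_mul H g
    rw [hh, hwell g h h.2]
  -- the full sum vanishes
  have htot : ∑ ω : G ⧸ H, Matrix.mulVec (M ω.out) z = 0 := by
    have hS : ∑ ω : G ⧸ H, ρ ω.out w = 0 := by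
      refine hG _ fun g => ?_
      rw [map_sum]
      refine Fintype.sum_equiv (MulAction.toPerm g) _ _ fun ω => ?_
      induction ω using QuotientGroup.induction_on with
      | H x =>
        obtain ⟨h, hh⟩ := QuotientGroup.mk_out_eq_mul H x
        obtain ⟨h', hh'⟩ := QuotientGroup.mk_out_eq_mul H (g * x)
        show ρ g (ρ (QuotientGroup.mk x).out w) = ρ (QuotientGroup.mk (g * x)).out w
        rw [hh, hh', ← Module.End.mul_apply, ← map_mul, ← mul_assoc, map_mul, map_mul ρ (g * x) h',
          Module.End.mul_apply, Module.End.mul_apply, hwfix _ h.2, hwfix _ h'.2]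
    funext i
    rw [Finset.sum_apply, Finset.sum_congr rfl fun ω _ => hMz ω.out i, ← map_sum, Pi.zero_apply]
    rw [show (∑ ω : G ⧸ H, Matrix.mulVec (A ω.out) u i) = 0 from Subtype.ext (by
      rw [AddSubmonoidClass.coe_finsetSum, Finset.sum_congr rfl fun ω _ => hAu ω.out i,
        ← Finsupp.finsetSum_apply, ← map_sum, hS]
      simp), map_zero]
  -- the other cosets form free orbits of `P`
  set ω₀ : G ⧸ H := QuotientGroup.mk 1
  have hout₀ : Matrix.mulVec (M ω₀.out) z = z := by
    rw [hout, map_one, Matrix.one_mulVec]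
  rw [← Finset.add_sum_erase _ _ (Finset.mem_univ ω₀), hout₀] at htot
  have hfree' : ∀ ω : G ⧸ H, ω ≠ ω₀ → ∀ x y : P, (x : G) • ω = (y : G) • ω → x = y := by
    intro ω hω x y hxy
    induction ω using QuotientGroup.induction_on with
    | H g =>
      have hg : g ∉ H := fun hg => hω (QuotientGroup.eq.2 (by simpa using hg))
      have h1 : ((x : G) * g)⁻¹ * ((y : G) * g) ∈ H := QuotientGroup.eq.1 hxy
      have h2 : g⁻¹ * ((x : G)⁻¹ * y) * g ∈ H := by
        simpa [mul_assoc] using h1
      have h3 := hfree _ (mul_mem (inv_mem x.2) y.2) g hg h2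
      exact Subtype.ext (inv_mul_eq_one.1 h3)
  haveI : Fintype (MulAction.orbitRel.Quotient P (G ⧸ H)) := Fintype.ofFinite _
  have hzero : ∑ ω ∈ Finset.univ.erase ω₀, Matrix.mulVec (M ω.out) z = 0 := by
    rw [← Finset.sum_fiberwise _ (fun ω : G ⧸ H =>
      (Quotient.mk'' ω : MulAction.orbitRel.Quotient P (G ⧸ H)))]
    refine Finset.sum_eq_zero fun q _ => ?_
    rcases (((Finset.univ : Finset (G ⧸ H)).erase ω₀).filter
      (fun ω => (Quotient.mk'' ω : MulAction.orbitRel.Quotient P (G ⧸ H)) = q)).eq_empty_or_nonempty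
      with h | ⟨ω, hω⟩
    · rw [h, Finset.sum_empty]
    rw [Finset.mem_filter, Finset.mem_erase] at hω
    obtain ⟨⟨hω0, -⟩, rfl⟩ := hω
    have hset : ((Finset.univ : Finset (G ⧸ H)).erase ω₀).filter
        (fun ν => (Quotient.mk'' ν : MulAction.orbitRel.Quotient P (G ⧸ H)) = Quotient.mk'' ω) =
        (Finset.univ : Finset P).image (fun x : P => (x : G) • ω) := by
      ext ν
      rw [Finset.mem_filter, Finset.mem_erase, Finset.mem_image, Quotient.eq'',
        MulAction.orbitRel_apply]
      refine ⟨fun ⟨_, x, hx⟩ => ⟨x, Finset.mem_univ _, hx⟩, ?_⟩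
      rintro ⟨x, -, rfl⟩
      refine ⟨⟨fun e => hω0 ?_, Finset.mem_univ _⟩, x, rfl⟩
      have h1 : ω = (x : G)⁻¹ • ω₀ := eq_inv_smul_iff.2 e
      rw [h1]
      show QuotientGroup.mk ((x : G)⁻¹ * 1) = ω₀
      exact QuotientGroup.eq.2 (by simpa using hPH x.2)
    rw [hset, Finset.sum_image fun x _ y _ e => hfree' ω hω0 x y e]
    have e : ∀ x : P, Matrix.mulVec (M ((x : G) • ω).out) z =
        Matrix.mulVec ((M.comp P.subtype) x) (Matrix.mulVec (M ω.out) z) := by
      intro x
      induction ω using QuotientGroup.induction_on with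
      | H g =>
        show Matrix.mulVec (M (QuotientGroup.mk ((x : G) * g)).out) z = _
        rw [hout, hout, map_mul, ← Matrix.mulVec_mulVec]
        rfl
    rw [Finset.sum_congr rfl fun x _ => e x]
    exact sum_eq_zero_of_card_lt hP (M.comp P.subtype) hιcard _
  rw [hzero, add_zero] at htot
  have h0 := congrFun htot i₀
  have hu : u i₀ = 1 := Subtype.ext hwi
  simp [z, hu] at h0

end CfsgLib.Chars.TIFixed
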