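import Mathlib

/-!
# Traces over a `p`-group in small dimension, characteristic `p`

If a `p`-group `P` acts on a space of dimension less than `|P|` over a field of characteristic `p`,
the sum of all group elements annihilates the space.
-/

set_option autoImplicit false

namespace CfsgLib.Chars.TIFixed

open Finset

/-- Translation of functions on a group. -/
def translate {P k : Type*} [Group P] (y : P) (c : P → k) : P → k := fun x => c (y⁻¹ * x)

theorem sum_eq_zero_of_card_lt {P : Type*} [Group P] [Fintype P] {p : ℕ} [hp : Fact p.Prime]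
    (hP : IsPGroup p P) {k : Type*} [Field k] [CharP k p] {ι : Type*} [Fintype ι] [DecidableEq ι]
    (M : P →* Matrix ι ι k) (hlt : Fintype.card ι < Fintype.card P) (w : ι → k) :
    ∑ x : P, Matrix.mulVec (M x) w = 0 := by
  classical
  let f := Fintype.linearCombination k (fun x : P => Matrix.mulVec (M x) w)
  have hker : LinearMap.ker f ≠ ⊥ := LinearMap.ker_ne_bot_of_finrank_lt (by simpa using hlt)
  obtain ⟨c, hc, hc0⟩ := (Submodule.ne_bot_iff _).1 hker
  let φ : (P → ZMod p) →+ (P → k) :=
    { toFun := fun n x => ∑ y : P, ZMod.castHom dvd_rfl k (n y) * c (y⁻¹ * x)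
      map_zero' := funext fun x => by simp
      map_add' := fun n m => funext fun x => by simp [add_mul, Finset.sum_add_distrib] }
  have hφf : ∀ n, f (φ n) = 0 := by
    intro n
    have hT : ∀ y : P, f (translate y c) = Matrix.mulVec (M y) (f c) := by
      intro y
      simp only [f, Fintype.linearCombination_apply, translate, Matrix.mulVec_sum]
      rw [← Equiv.sum_comp (Equiv.mulLeft y)
        (fun x => c (y⁻¹ * x) • Matrix.mulVec (M x) w)]
      refine Finset.sum_congr rfl fun x _ => ?_
      simp [Matrix.mulVec_smul, Matrix.mulVec_mulVec]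
    have e : φ n = ∑ y : P, ZMod.castHom dvd_rfl k (n y) • translate y c := by
      funext x
      simp [φ, translate, Finset.sum_apply]
    rw [e, map_sum]
    refine Finset.sum_eq_zero fun y _ => ?_
    rw [map_smul, hT, LinearMap.mem_ker.1 hc, Matrix.mulVec_zero, smul_zero]
  let act : MulAction P φ.range :=
    { smul := fun z s => ⟨translate z (s : P → k), by
        obtain ⟨n, hn⟩ := s.2
        refine ⟨fun y => n (z⁻¹ * y), funext fun x => ?_⟩
        rw [← hn]
        simp only [translate, φ, AddMonoidHom.coe_mk, ZeroHom.coe_mk]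
        rw [← Equiv.sum_comp (Equiv.mulLeft z)
          (fun y => ZMod.castHom dvd_rfl k (n (z⁻¹ * y)) * c (y⁻¹ * x))]
        refine Finset.sum_congr rfl fun y _ => ?_
        simp [mul_assoc]⟩
      one_smul := fun s => Subtype.ext (funext fun x => by
        change (s : P → k) (1⁻¹ * x) = (s : P → k) x
        rw [inv_one, one_mul])
      mul_smul := fun a b s => Subtype.ext (funext fun x => by
        change (s : P → k) ((a * b)⁻¹ * x) = (s : P → k) (b⁻¹ * (a⁻¹ * x))
        rw [mul_inv_rev, mul_assoc]) }
  letI := act
  have hne : (⟨c, fun y => if y = 1 then 1 else 0, funext fun x => by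
      simp only [φ, AddMonoidHom.coe_mk, ZeroHom.coe_mk]
      rw [Finset.sum_eq_single (1 : P) (fun y _ hy => by rw [if_neg hy, map_zero, zero_mul])
        (fun h => absurd (Finset.mem_univ _) h), if_pos rfl, map_one, one_mul, inv_one, one_mul]⟩ : φ.range) ≠ 0 :=
    fun e => hc0 (congrArg Subtype.val e)
  have hdvd : p ∣ Nat.card φ.range := by
    have h1 : Nat.card φ.range ∣ p ^ Fintype.card P := by
      have := AddSubgroup.card_range_dvd φ
      simpa [Nat.card_pi] using this
    obtain ⟨j, -, hj⟩ := (Nat.dvd_prime_pow hp.out).1 h1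
    have h2 : 1 < Nat.card φ.range := by
      haveI : Finite φ.range := Finite.of_surjective φ.rangeRestrict φ.rangeRestrict_surjective
      haveI : Nontrivial φ.range := ⟨_, _, hne⟩
      exact Finite.one_lt_card
    rw [hj] at h2 ⊢
    refine dvd_pow_self p fun h0 => ?_
    rw [h0, pow_zero] at h2
    omega
  haveI : Finite φ.range := Finite.of_surjective φ.rangeRestrict φ.rangeRestrict_surjective
  have h0 : (0 : φ.range) ∈ MulAction.fixedPoints P φ.range := fun z =>
    Subtype.ext (funext fun x => rfl)
  obtain ⟨⟨s, hs⟩, hfix, hs0⟩ :=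
    hP.exists_fixed_point_of_prime_dvd_card_of_fixed_point φ.range hdvd h0
  have hconst : ∀ x : P, s x = s 1 := by
    intro x
    have h := congrFun (congrArg Subtype.val (hfix x⁻¹)) 1
    change s (x⁻¹⁻¹ * 1) = s 1 at h
    rwa [inv_inv, mul_one] at h
  have ha : s 1 ≠ 0 := fun h => hs0 (Subtype.ext (funext fun x => by
    show (0 : k) = s x
    rw [hconst x, h]))
  obtain ⟨n, hn⟩ := hs
  have hfs := hφf n
  rw [hn] at hfs
  simp only [f, Fintype.linearCombination_apply] at hfs
  rw [Finset.sum_congr rfl (fun x _ => by rw [hconst x]), ← Finset.smul_sum] at hfs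
  exact (smul_eq_zero.1 hfs).resolve_left ha

end CfsgLib.Chars.TIFixed
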